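import Cfsg.Agent.H276.HM.SymD
import Cfsg.Agent.H41.HM.Adapt

/-!
# S5175, symmetric blocks: the block data
-/

set_option autoImplicit false
set_option linter.unusedSectionVars false
set_option linter.unusedVariables false

namespace Cfsg.Agent.H276.HM

open Subgroup Cfsg Cfsg.Agent.H756.HM Cfsg.Agent.H41.HM
open scoped commutatorElement

variable {P : Type*} [Group P] {T : Subgroup P} {I : Type} {n : ℕ} {S : Sy T I n}

local notation "QQ" => pCore 2 P
local notation "KK" => pResidual 2 P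
local notation "WW" => (⁅pCore 2 P, pResidual 2 P⁆ : Subgroup P)

section

variable {X : Subgroup P} (hX : Offd T X) (h : Full S X) {f : I → Fin n}
  (hf : ∀ x : I × Fin n, ¬ Mv S X x ↔ x = (x.1, f x.1))

include h hf in
theorem aux_sup [DecidableEq I] (gg : {x // Mv S X x} → P)
    (hg : ∀ j, Tri S (gg j) j.1 (pr S X j.1) (j.1.1, f j.1.1)) :
    WW ≤ (WW ⊓ centralizer ((X ⊔ QQ : Subgroup P) : Set P)) ⊔ ⨆ j, ⁅QQ, zpowers (gg j)⁆ := by
  refine gen hf ?_ ?_
  · intro w hw
    exact mem_sup_left ⟨hw.1, cenK h hw⟩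
  · intro x hx
    obtain ⟨w, hw, hwe⟩ := tri_ee h hf hx (hg ⟨x, hx⟩)
    refine ⟨w, mem_sup_right ?_, hw.1, hwe⟩
    refine (le_iSup (fun j => (⁅QQ, zpowers (gg j)⁆ : Subgroup P)) ⟨x, hx⟩) ?_
    rw [comm_eq_dd S (hg ⟨x, hx⟩).K (hg ⟨x, hx⟩).cube]
    exact hw

include hX h in
theorem T0_ne' [DecidableEq I] {x : I × Fin n} (hx : Mv S X x) : X ⊔ QQ ≠ QQ := by
  intro e
  obtain ⟨c, hc, hce⟩ := exists_swap hX h hx
  have h1 : c ∈ QQ := by rw [← e]; exact mem_sup_left hc
  rw [(S.σker c).2 h1] at hce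
  have h2 := congrArg (fun s : Equiv.Perm (I × Fin n) => s x) hce
  simp only [Equiv.Perm.one_apply, Equiv.swap_apply_left] at h2
  exact pr_ne h hx h2.symm

end

theorem bd_sym {P : Type*} [Group P] [Finite P] (T : Sylow 2 P) {I : Type} {n : ℕ} (S : Sy (T : Subgroup P) I n)
    (X : Subgroup P) (hX : Offd (T : Subgroup P) X) (h : Full S X) (hob : OffBound (T : Subgroup P)) (hoe : OffEq S) :
    Nonempty (BD (T : Subgroup P)) := by
  classical
  obtain ⟨f, hf⟩ := exists_ff h
  have hQn := Q_nor (P := P)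
  have hgex : ∀ j : {x // Mv S X x}, ∃ g, Tri S g j.1 (pr S X j.1) (j.1.1, f j.1.1) :=
    fun j => exists_tri' hX h hf j.2
  choose gg hg using hgex
  have hcd : ∀ j, (⁅pCore 2 P, zpowers (gg j)⁆ : Subgroup P) = dd S (gg j) := fun j =>
    comm_eq_dd S (hg j).K (hg j).cube
  obtain ⟨i0⟩ := S.ne
  obtain ⟨k0, hk0⟩ := exists_mv h hf i0
  have hA : ∀ j : {x // Mv S X x}, ∀ a ∈ AA S j.1 (pr S X j.1), a ∉ pCore 2 P →
      S.σ a = Equiv.swap j.1 (pr S X j.1) := by
    rintro j a (ha | ha) haQ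
    · exact absurd ((S.σker a).1 ha) haQ
    · exact ha
  have hAT : ∀ j : {x // Mv S X x}, ∀ a ∈ AA S j.1 (pr S X j.1), a ∈ X ⊔ pCore 2 P := by
    intro j a ha
    rw [← AB_sup hX h j.2]
    exact mem_sup_left ha
  refine ⟨{ W := ⁅pCore 2 P, pResidual 2 P⁆
            hW := rfl
            T0 := X ⊔ pCore 2 P
            q := 2
            q_ge := le_rfl
            W_le := W_le_Q
            W_normal := SBl.W_nor
            W_comm := S.bw.W_comm
            W_sq := S.bw.W_sq
            QK := le_rfl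
            CTW := S.bw.CTW
            Q_le_T0 := le_sup_right
            T0_le := sup_le hX.le (Lib.Cores.pCore_le_sylow T)
            T0_ne := T0_ne' hX h hk0
            off := fun X' h1 h2 h3 h4 => hob X' ⟨h1, h2, h3, h4⟩
            off_eq := ?_
            cent := fun t _ ht => cent' hX h hf ht
            coord := ⟨WU S (i0, k0) (pr S X (i0, k0)), BB S X (i0, k0), coord' hX h hf hk0⟩
            J := {x // Mv S X x}
            A := fun j => AA S j.1 (pr S X j.1)
            B := fun j => BB S X j.1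
            E := fun j => zpowers (gg j)
            Jne := ⟨⟨_, hk0⟩⟩
            QA := fun j => Q_le_AA _ _
            QB := fun j => Q_le_BB _
            AB := fun j => AB_sup hX h j.2
            Acard := fun j => A_card hX h j.2
            Bcard := fun j => B_card hX h j.2
            E_le := fun j => (zpowers_le).2 (hg j).K
            WB := ?_
            EB := ?_
            Aa := ?_
            wa := ?_
            irr := ?_
            Wsup := aux_sup h hf gg hg
            dich := ?_ }⟩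
  · intro X' h1 h2 h3 h4 h5
    by_cases h6 : X' ≤ pCore 2 P
    · exact Or.inl h6
    · have hX' : Offd (T : Subgroup P) X' := ⟨h1, h2, h3, h4⟩
      exact Or.inr (off_eq' T hX h hX' (hoe X' hX' h6 h5))
  · intro j w hw b hb
    rw [hcd j] at hw
    obtain ⟨h1, h2⟩ := fix_triple hX h hf hb.1 j.2 hb.2
    exact (hg j).comm_b hb.2 h1 h2 w hw
  · intro j w hw b hb e he
    obtain ⟨h1, h2⟩ := fix_triple hX h hf hb.1 j.2 hb.2
    have h3 : Commute (gg j) ⁅w, b⁆ := (hg j).comm_wb hb.2 h1 h2 hw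
    obtain ⟨k, rfl⟩ := he
    exact (h3.zpow_left k).eq
  · intro j a ha haQ
    have h1 := hA j a ha haQ
    rw [hcd j]
    exact ⟨aa1 hX h hf j.2 (hg j) (hAT j a ha) h1, aa3 hX h hf j.2 (hg j) (hAT j a ha) h1⟩
  · intro j w hw hwc a ha haQ
    rw [hcd j] at hw
    exact wa_aux hX h hf j.2 (hg j) hw hwc (hA j a ha haQ)
  · intro j Y hY hn hc
    rw [hcd j]
    exact irr_aux h hf j.2 (hg j) hY hn hc
  · by_contra hcon
    rw [not_or] at hcon
    obtain ⟨h1, h2⟩ := hcon
    push Not at h1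
    obtain ⟨j, hj⟩ := h1
    apply h2
    refine linOne' T hX h j.2 ?_
    intro t ht htx
    rw [← hj]
    exact ⟨ht, htx⟩

theorem bds : StBDS := fun T _ _ S X hX h hob hoe => bd_sym T S X hX h hob hoe

end Cfsg.Agent.H276.HM
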