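import Cfsg.Agent.H276.HM.SymB

/-!
# S5175, symmetric blocks: the fields of `BD`
-/

set_option autoImplicit false
set_option linter.unusedSectionVars false
set_option linter.unusedVariables false

namespace Cfsg.Agent.H276.HM

open Subgroup Cfsg Cfsg.Agent.H756.HM Cfsg.Agent.H41.HM
open scoped commutatorElement

variable {P : Type*} [Group P] {T : Subgroup P} {I : Type} {n : ℕ} {S : Sy T I n}

local notation "QQ" => pCore 2 P
local notation "KK" => pResidual 2 P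
local notation "WW" => (⁅pCore 2 P, pResidual 2 P⁆ : Subgroup P)

section

variable [DecidableEq I] {X : Subgroup P} (hX : Offd T X) (h : Full S X) {f : I → Fin n}
  (hf : ∀ x : I × Fin n, ¬ Mv S X x ↔ x = (x.1, f x.1))

include hf in
theorem ne_ff {x : I × Fin n} (hx : Mv S X x) : x ≠ (x.1, f x.1) := fun e => (hf x).2 e hx

include h hf in
theorem not_mv_ff (i : I) : ¬ Mv S X (i, f i) := (hf _).2 rfl

include h hf in
theorem mv_ne_ff {u : I × Fin n} (hu : Mv S X u) (i : I) : u ≠ (i, f i) := by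
  intro e
  rw [e] at hu
  exact not_mv_ff h hf i hu

include hX h hf in
theorem exists_tri' {x : I × Fin n} (hx : Mv S X x) : ∃ g, Tri S g x (pr S X x) (x.1, f x.1) := by
  refine exists_tri (pr_ne h hx).symm (ne_ff hf hx) ?_ (pr_blk h hx).symm rfl
  exact mv_ne_ff h hf (mv_pr hX h hx) _

include h hf in
/-- the vector `e_x + e_f` comes from `D` -/
theorem tri_ee {x : I × Fin n} (hx : Mv S X x) {g : P} (t : Tri S g x (pr S X x) (x.1, f x.1)) :
    ∃ w ∈ dd S g, S.Ψ w = SBl.ee x (x.1, f x.1) := by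
  refine t.exists_dd _ (SBl.ee_even rfl) ?_ ?_
  · intro u h1 h2 h3
    unfold SBl.ee
    rw [if_neg h1, if_neg h3, add_zero]
  · unfold SBl.ee
    rw [if_pos rfl, if_neg t.ne2, if_neg t.ne1.symm, if_neg t.ne3, if_neg t.ne2.symm, if_pos rfl]
    decide

include h hf in
/-- the vector `e_y + e_f` comes from `D` -/
theorem tri_ee' {x : I × Fin n} (hx : Mv S X x) {g : P} (t : Tri S g x (pr S X x) (x.1, f x.1)) :
    ∃ w ∈ dd S g, S.Ψ w = SBl.ee (pr S X x) (x.1, f x.1) := by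
  refine t.exists_dd _ (SBl.ee_even (pr_blk h hx)) ?_ ?_
  · intro u h1 h2 h3
    unfold SBl.ee
    rw [if_neg h2, if_neg h3, add_zero]
  · unfold SBl.ee
    rw [if_pos rfl, if_neg t.ne1, if_neg t.ne2, if_neg t.ne3, if_neg t.ne3.symm, if_pos rfl]
    decide

include hX h hf in
/-- an element of `T₀` fixing the moved point `x` fixes its triple -/
theorem fix_triple {b : P} (hb : b ∈ X ⊔ QQ) {x : I × Fin n} (hx : Mv S X x) (hbx : S.σ b x = x) :
    S.σ b (pr S X x) = pr S X x ∧ S.σ b (x.1, f x.1) = (x.1, f x.1) := by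
  obtain ⟨a, ha, hab⟩ := mem_T0.1 hb
  rw [hab] at hbx ⊢
  refine ⟨?_, not_mv (not_mv_ff h hf x.1) ha⟩
  rcases or_pr h ha (pr S X x) with h1 | h1
  · exact h1
  · exfalso
    rw [pr_pr hX h hx] at h1
    have h2 := (S.σ a).injective (h1.trans hbx.symm)
    exact pr_ne h hx h2

include hX h hf in
/-- `W = D C_W(a)` -/
theorem aa1 {x : I × Fin n} (hx : Mv S X x) {g : P} (t : Tri S g x (pr S X x) (x.1, f x.1)) {a : P}
    (haT : a ∈ X ⊔ QQ) (ha : S.σ a = Equiv.swap x (pr S X x)) : WW ≤ dd S g ⊔ (WW ⊓ centralizer ({a} : Set P)) := by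
  refine gen hf ?_ ?_
  · intro w hw
    refine mem_sup_right (Subgroup.mem_inf.2 ⟨hw.1, ?_⟩)
    rw [mem_centralizer_singleton_iff]
    exact (cenK h hw a haT).symm
  · intro u hu
    by_cases h1 : u = x
    · subst h1
      obtain ⟨w, hw, hwe⟩ := tri_ee h hf hx t
      exact ⟨w, mem_sup_left hw, hw.1, hwe⟩
    by_cases h2 : u = pr S X x
    · obtain ⟨w, hw, hwe⟩ := tri_ee' h hf hx t
      refine ⟨w, mem_sup_left hw, hw.1, ?_⟩
      rw [hwe, h2, pr_blk h hx]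
    obtain ⟨g', t'⟩ := exists_tri' hX h hf hu
    obtain ⟨w, hw, hwe⟩ := tri_ee h hf hu t'
    refine ⟨w, mem_sup_right (Subgroup.mem_inf.2 ⟨hw.1, ?_⟩), hw.1, hwe⟩
    rw [mem_centralizer_singleton_iff]
    have h3 : S.σ a u = u := by rw [ha, Equiv.swap_apply_of_ne_of_ne h1 h2]
    obtain ⟨h4, h5⟩ := fix_triple hX h hf haT hu h3
    exact t'.comm_b h3 h4 h5 w hw

include hX h hf in
/-- elements of `D` with equal coordinates at `x` and its partner -/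
theorem dd_cen {x : I × Fin n} (hx : Mv S X x) {g : P} (t : Tri S g x (pr S X x) (x.1, f x.1)) {d : P}
    (hd : d ∈ dd S g) (hd1 : S.Ψ d x = S.Ψ d (pr S X x)) : d ∈ centralizer ((X ⊔ QQ : Subgroup P) : Set P) := by
  refine cen0 h hd.1 fun u hu => ?_
  by_cases h1 : u = x
  · rw [h1]; exact hd1
  by_cases h2 : u = pr S X x
  · rw [h2, pr_pr hX h hx]; exact hd1.symm
  rw [t.supp hd h1 h2 (mv_ne_ff h hf hu _), t.supp hd ?_ ?_ (mv_ne_ff h hf (mv_pr hX h hu) _)]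
  · intro e
    rw [← e, pr_pr hX h hu] at h2
    exact h2 rfl
  · intro e
    have h3 := congrArg (pr S X) e
    rw [pr_pr hX h hu, pr_pr hX h hx] at h3
    exact h1 h3

include hX h hf in
theorem aa2 {x : I × Fin n} (hx : Mv S X x) {g : P} (t : Tri S g x (pr S X x) (x.1, f x.1)) {a : P}
    (haT : a ∈ X ⊔ QQ) (ha : S.σ a = Equiv.swap x (pr S X x)) {w : P} (hw : w ∈ WW) :
    w ∈ centralizer ({a} : Set P) ↔ S.Ψ w x = S.Ψ w (pr S X x) := by
  have h0 : ∀ w ∈ WW, w ∈ centralizer ({a} : Set P) → S.Ψ w x = S.Ψ w (pr S X x) := by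
    intro w hw h1
    rw [mem_centralizer_singleton_iff] at h1
    have h2 := Ψ_of_comm S hw h1.symm x
    rw [ha, Equiv.swap_apply_left] at h2
    exact h2.symm
  refine ⟨h0 w hw, fun h1 => ?_⟩
  obtain ⟨d, hd, c, hc, e⟩ := mem_sup_comm (H := dd S g)
    (L := WW ⊓ centralizer ({a} : Set P)) (fun a ha b hb => W_comm S ha.1 hb.1) (aa1 hX h hf hx t haT ha hw)
  have h2 := h0 c hc.1 hc.2
  have h3 : S.Ψ d x = S.Ψ d (pr S X x) := by
    rw [e, S.mul d hd.1 c hc.1, Pi.add_apply, Pi.add_apply, h2] at h1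
    exact add_right_cancel h1
  have h4 := dd_cen hX h hf hx t hd h3
  rw [e]
  refine mul_mem ?_ hc.2
  rw [mem_centralizer_singleton_iff]
  exact (h4 a haT).symm

theorem rel2 {H K : Subgroup P} (hH : ∃ a ∈ K, ∀ b ∈ K, (b * a ∈ H ↔ ¬ b ∈ H)) : H.relIndex K = 2 := by
  rw [relIndex_eq_two_iff]
  obtain ⟨a, ha, h1⟩ := hH
  refine ⟨a, ha, fun b hb => ?_⟩
  by_cases h2 : b ∈ H
  · exact Or.inr ⟨h2, fun h3 => (h1 b hb).1 h3 h2⟩
  · exact Or.inl ⟨(h1 b hb).2 h2, h2⟩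

include hX h hf in
theorem aa3 {x : I × Fin n} (hx : Mv S X x) {g : P} (t : Tri S g x (pr S X x) (x.1, f x.1)) {a : P}
    (haT : a ∈ X ⊔ QQ) (ha : S.σ a = Equiv.swap x (pr S X x)) :
    (WW ⊓ centralizer ({a} : Set P)).relIndex WW = 2 := by
  obtain ⟨d, hd, hde⟩ := tri_ee h hf hx t
  refine rel2 ⟨d, hd.1, fun b hb => ?_⟩
  have h1 : ∀ w ∈ WW, w ∈ WW ⊓ centralizer ({a} : Set P) ↔ S.Ψ w x = S.Ψ w (pr S X x) := fun w hw =>
    ⟨fun h2 => (aa2 hX h hf hx t haT ha hw).1 h2.2, fun h2 => ⟨hw, (aa2 hX h hf hx t haT ha hw).2 h2⟩⟩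
  rw [h1 _ (mul_mem hb hd.1), h1 _ hb, S.mul b hb d hd.1, Pi.add_apply, Pi.add_apply, hde]
  unfold SBl.ee
  rw [if_pos rfl, if_neg t.ne2, if_neg t.ne1.symm, if_neg t.ne3]
  generalize S.Ψ b x = u
  generalize S.Ψ b (pr S X x) = v
  revert u v; decide

include hX h hf in
theorem wa_aux {x : I × Fin n} (hx : Mv S X x) {g : P} (t : Tri S g x (pr S X x) (x.1, f x.1)) {w a : P}
    (hw : w ∈ dd S g) (hwc : w ∉ centralizer ((X ⊔ QQ : Subgroup P) : Set P))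
    (ha : S.σ a = Equiv.swap x (pr S X x)) : ⁅w, a⁆ ∉ centralizer ((zpowers g : Subgroup P) : Set P) := by
  intro hcon
  have h1 : S.Ψ w x ≠ S.Ψ w (pr S X x) := fun e => hwc (dd_cen hX h hf hx t hw e)
  have h2 : g * ⁅w, a⁆ = ⁅w, a⁆ * g := hcon g (mem_zpowers g)
  have h3 : ⁅w, a⁆ = w * (a * w⁻¹ * a⁻¹) := by rw [commutatorElement_def]; group
  have h4 : a * w⁻¹ * a⁻¹ ∈ WW := conj_W a (inv_mem hw.1)
  have h5 : ⁅w, a⁆ ∈ WW := by rw [h3]; exact mul_mem hw.1 h4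
  have h6 : ∀ u, S.Ψ ⁅w, a⁆ u = S.Ψ w u + S.Ψ w (Equiv.swap x (pr S X x) u) := by
    intro u
    rw [h3, S.mul w hw.1 _ h4, Pi.add_apply, Ψ_conj S a (inv_mem hw.1), Ψ_inv S hw.1, ha, Equiv.swap_inv]
  have h7 := Ψ_of_comm S h5 h2 x
  rw [t.sx, h6, h6, Equiv.swap_apply_left, Equiv.swap_apply_of_ne_of_ne t.ne2.symm t.ne3.symm, z2] at h7
  exact h1 (z2' h7.symm)

include hf h in
theorem irr_aux {x : I × Fin n} (hx : Mv S X x) {g : P} (t : Tri S g x (pr S X x) (x.1, f x.1)) {Y : Subgroup P}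
    (hY : Y ≤ QQ) (hgY : zpowers g ≤ normalizer (Y : Set P)) (hn : ¬ Y ≤ centralizer ((zpowers g : Subgroup P) : Set P)) :
    dd S g ≤ Y := by
  have hgn : ∀ y ∈ Y, g * y * g⁻¹ ∈ Y := fun y hy => (mem_normalizer_iff.1 (hgY (mem_zpowers g)) y).1 hy
  obtain ⟨y, hy, hyc⟩ : ∃ y ∈ Y, ⁅y, g⁆ ≠ 1 := by
    by_contra hcon
    push Not at hcon
    apply hn
    intro y hy
    have h1 : Commute y g := commutatorElement_eq_one_iff_mul_comm.1 (hcon y hy)
    rintro _ ⟨k, rfl⟩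
    exact (h1.zpow_right k).symm.eq
  obtain ⟨u, hu⟩ : ∃ u, u = ⁅y, g⁆ := ⟨_, rfl⟩
  rw [← hu] at hyc
  have huD : u ∈ dd S g := by
    rw [hu]
    exact comm_le_dd S t.K t.cube (commutator_mem_commutator (hY hy) (mem_zpowers g))
  have huY : u ∈ Y := by
    have e : u = y * (g * y⁻¹ * g⁻¹) := by rw [hu, commutatorElement_def]; group
    rw [e]
    exact mul_mem hy (hgn _ (inv_mem hy))
  have hu0 : S.Ψ u ≠ 0 := fun e => hyc (t.inj huD e)
  have hu1 := conj_dd S t.cube huD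
  have hu1Y := hgn u huY
  have hu2 := conj_dd S t.cube hu1
  have hu2Y := hgn _ hu1Y
  have v1x : S.Ψ (g * u * g⁻¹) x = S.Ψ u (pr S X x) := by rw [Ψ_conj S g huD.1, t.ix]
  have v1y : S.Ψ (g * u * g⁻¹) (pr S X x) = S.Ψ u (x.1, f x.1) := by rw [Ψ_conj S g huD.1, t.iy]
  have v2x : S.Ψ (g * (g * u * g⁻¹) * g⁻¹) x = S.Ψ u (x.1, f x.1) := by rw [Ψ_conj S g hu1.1, t.ix, v1y]
  have v2y : S.Ψ (g * (g * u * g⁻¹) * g⁻¹) (pr S X x) = S.Ψ u x := by
    rw [Ψ_conj S g hu1.1, t.iy, Ψ_conj S g huD.1, t.iz]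
  have hsum := t.sum huD
  have hne : ¬ (S.Ψ u x = 0 ∧ S.Ψ u (pr S X x) = 0) := by
    rintro ⟨h1, h2⟩
    apply hyc
    refine t.ext huD (one_mem _) ?_ ?_
    · rw [h1, Ψ_one]; rfl
    · rw [h2, Ψ_one]; rfl
  intro w hw
  have key : ∀ a b c p q : ZMod 2, a + b + c = 0 → ¬ (a = 0 ∧ b = 0) →
      (p = 0 ∧ q = 0) ∨ (p = a ∧ q = b) ∨ (p = b ∧ q = c) ∨ (p = c ∧ q = a) := by
    intro a b c p q
    rcases z2'' a with rfl | rfl <;> rcases z2'' b with rfl | rfl <;> rcases z2'' c with rfl | rfl <;>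
      rcases z2'' p with rfl | rfl <;> rcases z2'' q with rfl | rfl <;> decide
  rcases key _ _ _ (S.Ψ w x) (S.Ψ w (pr S X x)) hsum hne with ⟨h1, h2⟩ | ⟨h1, h2⟩ | ⟨h1, h2⟩ | ⟨h1, h2⟩
  · have : w = 1 := by
      refine t.ext hw (one_mem _) ?_ ?_
      · rw [h1, Ψ_one]; rfl
      · rw [h2, Ψ_one]; rfl
    rw [this]; exact one_mem _
  · rw [t.ext hw huD h1 h2]; exact huY
  · rw [t.ext hw hu1 (h1.trans v1x.symm) (h2.trans v1y.symm)]; exact hu1Y
  · rw [t.ext hw hu2 (h1.trans v2x.symm) (h2.trans v2y.symm)]; exact hu2Y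

end

end Cfsg.Agent.H276.HM
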