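import Cfsg.Agent.H276.HM.SymC

/-!
# S5175, symmetric blocks: the remaining fields of `BD`
-/

set_option autoImplicit false
set_option linter.unusedSectionVars false
set_option linter.unusedVariables false

namespace Cfsg.Agent.H276.HM

open Subgroup Cfsg Cfsg.Agent.H756.HM Cfsg.Agent.H41.HM
open scoped commutatorElement

variable {P : Type*} [Group P] {T : Subgroup P} {I : Type} {n : ℕ} {S : Sy T I n}

local notation "QQ" => pCore 2 P
local notation "KK" => pResidual 2 P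
local notation "WW" => (⁅pCore 2 P, pResidual 2 P⁆ : Subgroup P)

/-- `A_j` -/
def AA [DecidableEq I] (S : Sy T I n) (x y : I × Fin n) : Subgroup P where
  carrier := {t | S.σ t = 1 ∨ S.σ t = Equiv.swap x y}
  one_mem' := Or.inl (map_one _)
  mul_mem' := by
    rintro a b (ha | ha) (hb | hb)
    · left; rw [map_mul, ha, hb, one_mul]
    · right; rw [map_mul, ha, hb, one_mul]
    · right; rw [map_mul, ha, hb, mul_one]
    · left; rw [map_mul, ha, hb, Equiv.swap_mul_self]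
  inv_mem' := by
    rintro a (ha | ha)
    · left; rw [map_inv, ha, inv_one]
    · right; rw [map_inv, ha, Equiv.swap_inv]

/-- `B_j` -/
def BB (S : Sy T I n) (X : Subgroup P) (x : I × Fin n) : Subgroup P where
  carrier := {t | t ∈ X ⊔ pCore 2 P ∧ S.σ t x = x}
  one_mem' := ⟨one_mem _, by rw [map_one]; rfl⟩
  mul_mem' := by
    rintro a b ⟨ha, ha'⟩ ⟨hb, hb'⟩
    exact ⟨mul_mem ha hb, by rw [map_mul, Equiv.Perm.mul_apply, hb', ha']⟩
  inv_mem' := by
    rintro a ⟨ha, ha'⟩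
    refine ⟨inv_mem ha, ?_⟩
    rw [map_inv, Equiv.Perm.inv_eq_iff_eq]
    exact ha'.symm

/-- the coordinate subgroup `W_u` -/
def WU (S : Sy T I n) (x y : I × Fin n) : Subgroup P where
  carrier := {w | w ∈ (⁅pCore 2 P, pResidual 2 P⁆ : Subgroup P) ∧ S.Ψ w x = S.Ψ w y}
  one_mem' := ⟨one_mem _, by rw [Ψ_one]; rfl⟩
  mul_mem' := by
    rintro a b ⟨ha, ha'⟩ ⟨hb, hb'⟩
    exact ⟨mul_mem ha hb, by rw [S.mul a ha b hb, Pi.add_apply, Pi.add_apply, ha', hb']⟩
  inv_mem' := by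
    rintro a ⟨ha, ha'⟩
    exact ⟨inv_mem ha, by rw [Ψ_inv S ha, ha']⟩

section

variable {X : Subgroup P} (hX : Offd T X) (h : Full S X) {f : I → Fin n}
  (hf : ∀ x : I × Fin n, ¬ Mv S X x ↔ x = (x.1, f x.1))

include h hf in
theorem exists_mv (i : I) : ∃ k, Mv S X (i, k) := by
  have hn := S.n3
  obtain ⟨k, hk⟩ : ∃ k : Fin n, k ≠ f i := by
    have : Nontrivial (Fin n) := Fin.nontrivial_iff_two_le.2 (by omega)
    exact exists_ne (f i)
  refine ⟨k, ?_⟩
  by_contra hcon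
  exact hk (congrArg Prod.snd ((hf (i, k)).1 hcon))

include hX h hf in
/-- `C_T(T₀ / Q) ≤ T₀` -/
theorem cent' {t : P} (ht : ∀ a ∈ X ⊔ QQ, ⁅t, a⁆ ∈ QQ) : t ∈ X ⊔ QQ := by
  classical
  have hc : ∀ a ∈ X, S.σ t * S.σ a = S.σ a * S.σ t := by
    intro a ha
    have h1 := (S.σker _).2 (ht a (mem_sup_left ha))
    rw [map_commutatorElement, commutatorElement_eq_one_iff_mul_comm] at h1
    exact h1
  have hmv : ∀ u, Mv S X u → S.σ t u = u ∨ S.σ t u = pr S X u := by
    intro u hu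
    obtain ⟨a, ha, hae⟩ := exists_swap hX h hu
    by_contra hcon
    push Not at hcon
    have h1 := congrArg (fun s : Equiv.Perm (I × Fin n) => s u) (hc a ha)
    simp only [Equiv.Perm.mul_apply] at h1
    rw [hae, Equiv.swap_apply_left, Equiv.swap_apply_of_ne_of_ne hcon.1 hcon.2] at h1
    exact pr_ne h hu ((S.σ t).injective h1)
  have key : ∀ u, ∃ a ∈ X, S.σ t u = S.σ a u := by
    intro u
    by_cases hu : Mv S X u
    · rcases hmv u hu with h1 | h1
      · exact ⟨1, one_mem _, by rw [h1, map_one]; rfl⟩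
      · obtain ⟨a, ha, hae⟩ := exists_swap hX h hu
        exact ⟨a, ha, by rw [h1, hae, Equiv.swap_apply_left]⟩
    · refine ⟨1, one_mem _, ?_⟩
      have h1 : ¬ Mv S X (S.σ t u) := by
        intro hv
        obtain ⟨a, ha, hae⟩ := exists_swap hX h hv
        have h2 := congrArg (fun s : Equiv.Perm (I × Fin n) => s u) (hc a ha)
        simp only [Equiv.Perm.mul_apply] at h2
        rw [not_mv hu ha, hae, Equiv.swap_apply_left] at h2
        exact pr_ne h hv h2.symm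
      have h2 := (hf _).1 h1
      obtain ⟨k, hk⟩ := exists_mv h hf u.1
      have h3 : (S.σ t u).1 = u.1 := by
        have h4 := S.blk t u.1 u.2 k
        rw [show (u.1, u.2) = u from rfl] at h4
        rw [h4]
        rcases hmv _ hk with h5 | h5
        · rw [h5]
        · rw [h5, pr_blk h hk]
      rw [map_one, Equiv.Perm.one_apply, h2, h3]
      exact ((hf u).1 hu).symm
  obtain ⟨a, ha, hae⟩ := h.full _ key
  exact mem_T0.2 ⟨a, ha, hae.symm⟩

theorem Q_le_AA [DecidableEq I] (x y : I × Fin n) : QQ ≤ AA S x y := fun q hq => Or.inl ((S.σker q).2 hq)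

theorem Q_le_BB (x : I × Fin n) : QQ ≤ BB S X x := fun q hq =>
  ⟨mem_sup_right hq, by rw [(S.σker q).2 hq]; rfl⟩

include hX h in
theorem AB_sup [DecidableEq I] {x : I × Fin n} (hx : Mv S X x) : AA S x (pr S X x) ⊔ BB S X x = X ⊔ QQ := by
  obtain ⟨c, hc, hce⟩ := exists_swap hX h hx
  apply le_antisymm
  · refine sup_le ?_ (fun t ht => ht.1)
    rintro t (ht | ht)
    · exact mem_T0.2 ⟨1, one_mem _, by rw [ht, map_one]⟩
    · exact mem_T0.2 ⟨c, hc, by rw [ht, hce]⟩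
  · intro t ht
    by_cases h1 : S.σ t x = x
    · exact mem_sup_right ⟨ht, h1⟩
    · have h2 : S.σ t x = pr S X x := by
        obtain ⟨a, ha, hta⟩ := mem_T0.1 ht
        rw [hta] at h1 ⊢
        exact pr_eq h ha h1
      rw [← mul_inv_cancel_left c t]
      refine mul_mem (mem_sup_left (Or.inr hce)) (mem_sup_right ⟨mul_mem (inv_mem (mem_sup_left hc)) ht, ?_⟩)
      rw [map_mul, map_inv, Equiv.Perm.mul_apply, h2, hce, Equiv.swap_inv, Equiv.swap_apply_right]

include hX h in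
theorem A_card [DecidableEq I] {x : I × Fin n} (hx : Mv S X x) : (QQ).relIndex (AA S x (pr S X x)) = 2 := by
  obtain ⟨c, hc, hce⟩ := exists_swap hX h hx
  have hne : Equiv.swap x (pr S X x) ≠ 1 := by
    intro e
    have := congrArg (fun s : Equiv.Perm (I × Fin n) => s x) e
    simp only [Equiv.swap_apply_left] at this
    exact pr_ne h hx this
  refine rel2 ⟨c, Or.inr hce, ?_⟩
  rintro b (hb | hb)
  · rw [← S.σker, ← S.σker, map_mul, hb, hce, one_mul]
    simp [hne]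
  · rw [← S.σker, ← S.σker, map_mul, hb, hce, Equiv.swap_mul_self]
    simp [hne]

include hX h in
theorem B_card [DecidableEq I] {x : I × Fin n} (hx : Mv S X x) : (BB S X x).relIndex (X ⊔ QQ) = 2 := by
  obtain ⟨c, hc, hce⟩ := exists_swap hX h hx
  refine rel2 ⟨c, mem_sup_left hc, fun b hb => ?_⟩
  have h1 : b * c ∈ BB S X x ↔ S.σ b (pr S X x) = x := by
    constructor
    · rintro ⟨-, h2⟩
      rwa [map_mul, Equiv.Perm.mul_apply, hce, Equiv.swap_apply_left] at h2
    · intro h2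
      exact ⟨mul_mem hb (mem_sup_left hc), by rwa [map_mul, Equiv.Perm.mul_apply, hce, Equiv.swap_apply_left]⟩
  have h2 : b ∈ BB S X x ↔ S.σ b x = x := ⟨fun h => h.2, fun h => ⟨hb, h⟩⟩
  rw [h1, h2]
  obtain ⟨a, ha, hba⟩ := mem_T0.1 hb
  rw [hba]
  constructor
  · intro h3 h4
    exact pr_ne h hx ((S.σ a).injective (h3.trans h4.symm))
  · intro h3
    rw [← pr_eq h ha h3, sq1 hX ha]

include hX h hf in
theorem coord' [DecidableEq I] {x : I × Fin n} (hx : Mv S X x) :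
    WW ⊓ centralizer ((X ⊔ QQ : Subgroup P) : Set P) ≤ WU S x (pr S X x) ∧ ¬ WW ≤ WU S x (pr S X x) ∧
      QQ ≤ BB S X x ∧ ¬ X ⊔ QQ ≤ BB S X x ∧
      ∀ w ∈ WW, ∀ t ∈ X ⊔ QQ, ⁅w, t⁆ ∈ centralizer (KK : Set P) → w ∈ WU S x (pr S X x) ∨ t ∈ BB S X x := by
  obtain ⟨c, hc, hce⟩ := exists_swap hX h hx
  obtain ⟨g, tt⟩ := exists_tri' hX h hf hx
  refine ⟨?_, ?_, Q_le_BB x, ?_, ?_⟩
  · rintro w ⟨hw, hwc⟩
    refine ⟨hw, ?_⟩
    have h2 := Ψ_of_comm S hw (hwc c (mem_sup_left hc)) x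
    rw [hce, Equiv.swap_apply_left] at h2
    exact h2.symm
  · intro hcon
    obtain ⟨w, hw, hwe⟩ := tri_ee h hf hx tt
    have h1 := (hcon hw.1).2
    rw [hwe] at h1
    unfold SBl.ee at h1
    rw [if_pos rfl, if_neg tt.ne2, if_neg tt.ne1.symm, if_neg tt.ne3] at h1
    exact absurd h1 (by decide)
  · intro hcon
    have h1 := (hcon (mem_sup_left hc)).2
    rw [hce, Equiv.swap_apply_left] at h1
    exact pr_ne h hx h1
  · intro w hw t ht hwt
    by_cases h1 : S.σ t x = x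
    · exact Or.inr ⟨ht, h1⟩
    · left
      have h2 : S.σ t x = pr S X x := by
        obtain ⟨a, ha, hta⟩ := mem_T0.1 ht
        rw [hta] at h1 ⊢
        exact pr_eq h ha h1
      refine ⟨hw, ?_⟩
      have h3 : ⁅w, t⁆ = w * (t * w⁻¹ * t⁻¹) := by rw [commutatorElement_def]; group
      have h4 : t * w⁻¹ * t⁻¹ ∈ WW := conj_W t (inv_mem hw)
      have h5 : ⁅w, t⁆ ∈ WW := by rw [h3]; exact mul_mem hw h4
      have h6 := congrFun ((S.ker _ h5).2 hwt) (pr S X x)
      rw [h3, S.mul w hw _ h4, Pi.add_apply, Ψ_conj S t (inv_mem hw), Ψ_inv S hw] at h6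
      have h7 : (S.σ t)⁻¹ (pr S X x) = x := by rw [Equiv.Perm.inv_eq_iff_eq]; exact h2.symm
      rw [h7] at h6
      exact (z2' h6).symm

end

end Cfsg.Agent.H276.HM
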